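import Cfsg.Agent.H672.Four.InterfaceB
import Cfsg.Agent.H670.Palfy.Field

/-!
# S4773-H: `FactRoot` (task 2542; helper680)
-/

set_option autoImplicit false

namespace Cfsg.Agent.H680.Four

open Subgroup Cfsg.Agent.H670.Palfy Cfsg.Agent.H672.Four Cfsg.Agent.PermutationGroups.HalfTransField

universe u v

theorem mem_norm {H : Type u} [Group H] [Finite H] {x y : H} (h : x * y * x⁻¹ ∈ zpowers y) :
    x ∈ normalizer ((zpowers y : Subgroup H) : Set H) := by
  have h1 : (zpowers y).map (MulAut.conj x).toMonoidHom ≤ zpowers y := by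
    rintro _ ⟨_, ⟨i, rfl⟩, rfl⟩
    have : (MulAut.conj x).toMonoidHom (y ^ i) = (x * y * x⁻¹) ^ i := by
      rw [map_zpow]; rfl
    rw [this]
    exact zpow_mem h i
  have h2 : (zpowers y).map (MulAut.conj x).toMonoidHom = zpowers y := by
    apply Subgroup.eq_of_le_of_card_ge h1
    rw [Subgroup.card_map_of_injective (MulAut.conj x).injective]
  rw [mem_normalizer_iff]
  intro g
  constructor
  · intro hg
    have : x * g * x⁻¹ ∈ (zpowers y).map (MulAut.conj x).toMonoidHom := ⟨g, hg, rfl⟩
    rwa [h2] at this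
  · intro hg
    have h3 : x * g * x⁻¹ ∈ (zpowers y).map (MulAut.conj x).toMonoidHom := by rw [h2]; exact hg
    obtain ⟨g', hg', h4⟩ := h3
    have h5 : g' = g := (MulAut.conj x).injective h4
    rwa [← h5]

/-- **FactRoot** (task 2542) -/
theorem factRoot : FactRoot.{u, v} := by
  intro H V _ _ _ _ _ hF x y hx hy hirr hxy v hv hxv
  have hxN := mem_norm hxy
  let N : Subgroup H := normalizer ((zpowers y : Subgroup H) : Set H)
  have hyN : y ∈ N := Subgroup.le_normalizer (mem_zpowers y)
  let x' : N := ⟨x, hxN⟩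
  let y' : N := ⟨y, hyN⟩
  have hN : (zpowers y').Normal := by
    refine ⟨fun n hn g => ?_⟩
    obtain ⟨i, hi⟩ := hn
    have h1 : (g : H) * (n : H) * (g : H)⁻¹ ∈ zpowers y :=
      (mem_normalizer_iff.1 g.2 _).1 ⟨i, congrArg Subtype.val hi⟩
    obtain ⟨j, hj⟩ := h1
    exact ⟨j, Subtype.ext hj⟩
  have hirr' : ∀ W : AddSubgroup V, (∀ w ∈ W, y' • w ∈ W) → W = ⊥ ∨ W = ⊤ := fun W hW => hirr W hW
  have hF' : ∀ h : N, (∀ v : V, h • v = v) → h = 1 := fun h hh => Subtype.ext (hF h hh)
  have hnt : Nontrivial V := ⟨⟨v, 0, hv⟩⟩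
  have hK : IsField (Kx V y') := kx_isField hirr'
  have hfin : Finite (AddMonoid.End V) := finite_end
  set τ : RingAut (Kx V y') := conjK (V := V) hN x' with hτ
  have hact : ∀ k : Kx V y', x • k.1 v = (τ k).1 v := by
    intro k
    have h1 := conjK_apply hN x' k v
    rw [show x' • v = v from hxv] at h1
    exact h1.symm
  have hτt : τ ^ orderOf x = 1 := by
    have h1 : x' ^ orderOf x = 1 := Subtype.ext (pow_orderOf_eq_one x)
    rw [hτ, ← map_pow, h1, map_one]
  have hτ1 : τ ≠ 1 := by
    intro h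
    have h1 : x = 1 := by
      apply hF
      intro w
      obtain ⟨k, hk, rfl⟩ := kx_surj hirr' hv w
      have h2 := hact ⟨k, hk⟩
      rw [h] at h2
      exact h2
    rw [h1, orderOf_one] at hx
    exact Nat.not_prime_one hx
  have hfac : Fact (orderOf x).Prime := ⟨hx⟩
  have ho : orderOf τ = orderOf x := orderOf_eq_prime hτt hτ1
  have h1 := @card_fixed_pow (Kx V y') hK.toField inferInstance (zpowers τ)
  rw [Nat.card_zpowers, ho] at h1
  rw [← Nat.card_congr (evalEquiv hirr' hv), h1]
  congr 1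
  refine Nat.card_congr ?_
  refine (evalEquiv hirr' hv).subtypeEquiv fun k => ?_
  rw [evalEquiv_apply]
  constructor
  · intro hk
    have h2 : τ k = k := hk τ (mem_zpowers τ)
    have h3 : x • k.1 v = k.1 v := by rw [hact k, h2]
    have h4 : zpowers x ≤ MulAction.stabilizer H (k.1 v) := by rw [zpowers_le]; exact h3
    exact mem_fixed.2 fun z hz => h4 hz
  · intro hk
    have h3 : x • k.1 v = k.1 v := mem_fixed.1 hk x (mem_zpowers x)
    rw [hact k] at h3
    have h2 : τ k = k := (evalEquiv hirr' hv).injective h3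
    have h4 : zpowers τ ≤ MulAction.stabilizer (RingAut (Kx V y')) k := by rw [zpowers_le]; exact h2
    exact fun z hz => h4 hz

end Cfsg.Agent.H680.Four
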